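import Cfsg.Agent.H671.KGV.Lift
import Cfsg.Agent.H600.Canon
import Cfsg.Agent.H527.RC.Stmts

/-!
# S4191, `PLin` for `p ≥ 3` (helper96)

`X = R Y` with a normal `p`-complement `R` acting faithfully on the elementary abelian `p`-group `V` of rank `n`:
the Brauer character of `V` on `R` is a faithful character of degree `n` fixed by the Sylow `p`-subgroup of `X`, which
acts faithfully on `R`.  So `ν(X) ≤ λ_p(n) ≤ n p / (p - 1)²` (helper600's bound).
-/

set_option autoImplicit false

namespace Cfsg.Agent.H96.RC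

open Cfsg Polynomial IsLocalRing Module Cfsg.Agent.H657 Cfsg.Agent.H644.KGV Cfsg.Agent.H671.KGV Cfsg.Agent.H527.RC
open Cfsg.Agent.H600.Lam Cfsg.Agent.H600.Red
open scoped TensorProduct

universe u

attribute [local instance] Above.isAlgClosed

/-- The representation over the prime field attached to an action. -/
noncomputable def daRep (p : ℕ) (X W : Type u) [Group X] [AddCommGroup W] [Module (ZMod p) W]
    [DistribMulAction X W] : Representation (ZMod p) X W where
  toFun g := AddMonoidHom.toZModLinearMap p (DistribSMul.toAddMonoidHom W g)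
  map_one' := by
    ext w
    exact one_smul X w
  map_mul' a b := by
    ext w
    exact mul_smul a b w

theorem daRep_apply (p : ℕ) (X W : Type u) [Group X] [AddCommGroup W] [Module (ZMod p) W]
    [DistribMulAction X W] (g : X) (w : W) : daRep p X W g w = g • w := rfl

/-- Its restriction to a subgroup. -/
noncomputable def resRep (p : ℕ) {X W : Type u} [Group X] [AddCommGroup W] [Module (ZMod p) W]
    [DistribMulAction X W] (R : Subgroup X) : Representation (ZMod p) R W where
  toFun x := daRep p X W (x : X)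
  map_one' := by rw [Subgroup.coe_one, map_one]
  map_mul' a b := by rw [Subgroup.coe_mul, map_mul]

theorem charpoly_conj' (p : ℕ) [Fact p.Prime] (X W : Type u) [Group X] [AddCommGroup W] [Module (ZMod p) W]
    [Finite W] [DistribMulAction X W] (g x : X) :
    LinearMap.charpoly (daRep p X W (g * x * g⁻¹)) = LinearMap.charpoly (daRep p X W x) := by
  have : Module.Finite (ZMod p) W := Module.Finite.of_finite
  let e : W ≃ₗ[ZMod p] W := LinearEquiv.ofLinearMap (daRep p X W g) (daRep p X W g⁻¹)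
    (by
      rw [← Module.End.mul_eq_comp, ← map_mul, mul_inv_cancel, map_one]
      rfl)
    (by
      rw [← Module.End.mul_eq_comp, ← map_mul, inv_mul_cancel, map_one]
      rfl)
  have h := LinearEquiv.charpoly_conj e (daRep p X W x)
  rw [← h]
  congr 1
  rw [map_mul, map_mul]
  rfl

/-- The Brauer character of the normal `p`-complement. -/
theorem exists_lift' {p : ℕ} [Fact p.Prime] {X W : Type u} [Group X] [Finite X] [AddCommGroup W] [Finite W]
    [Module (ZMod p) W] [DistribMulAction X W] (R : Subgroup X) (hR : R.Normal) (hpR : ¬ p ∣ Nat.card R)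
    (hf : ∀ g : X, (∀ w : W, g • w = w) → g = 1) :
    ∃ (β : R → ℂ) (n : ℕ), IsCharacter R β ∧ β 1 = n ∧ Nat.card W = p ^ n ∧ (∀ x : R, β x = β 1 → x = 1) ∧
      ∀ (g : X) (x : R), β ⟨g * x * g⁻¹, hR.conj_mem x x.2 g⟩ = β x := by
  classical
  have hp : p.Prime := Fact.out
  obtain ⟨M, hM⟩ := Cfsg.Agent.Blocks.ExistsModular.exists_isPModular hp
  obtain ⟨V, hV⟩ := exists_above hM
  have hchar : CharP (ResidueField V) p := hV.charP hM
  let _ : Algebra (ZMod p) (ResidueField V) := ZMod.algebra _ p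
  have : Module.Finite (ZMod p) W := Module.Finite.of_finite
  let ρ : Representation (ZMod p) R W := resRep p R
  have hρ : ∀ (x : R) (w : W), ρ x w = (x : X) • w := fun x w => rfl
  set σ := bch (ResidueField V) ρ with hσ
  have hreg : ∀ x : R, ¬ p ∣ orderOf x := fun x h => hpR (h.trans (orderOf_dvd_natCard x))
  have hcp : ∀ x, LinearMap.charpoly (σ x) =
      (LinearMap.charpoly (ρ x)).map (algebraMap (ZMod p) (ResidueField V)) :=
    fun x => LinearMap.charpoly_baseChange (ρ x) (ResidueField V)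
  have heig : ∀ x, IsEig (bc p σ) x ((LinearMap.charpoly (σ x)).roots.map (lift p)) :=
    fun x => isEig_bc σ (hreg x)
  have hchr : IsCharacter R (bc p σ) := Cfsg.Agent.H699.IBrLift.isCharacter_bc hM hV hpR σ
  have hcard : Nat.card W = p ^ finrank (ZMod p) W := by
    have h1 := Module.natCard_eq_pow_finrank (K := ZMod p) (V := W)
    rwa [Nat.card_zmod] at h1
  have hone : bc p σ 1 = (finrank (ZMod p) W : ℕ) := by
    rw [Cfsg.Agent.H699.IBrLift.bc_one, Module.finrank_baseChange]
  refine ⟨bc p σ, finrank (ZMod p) W, hchr, hone, hcard, ?_, ?_⟩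
  · intro x hx
    obtain ⟨n, τ, hτ⟩ := id hchr
    have h1 : τ x = 1 := by
      rw [← char_eq_one_iff, hτ]
      exact hx
    have h2 : IsEig (bc p σ) x (Multiset.replicate n 1) := by
      refine ⟨?_, ?_⟩
      · intro z hz
        rw [Multiset.eq_of_mem_replicate hz, one_pow]
      · intro i
        rw [Multiset.map_replicate, Multiset.sum_replicate, one_pow, nsmul_eq_mul, mul_one, ← hτ]
        have h3 : τ (x ^ i) = 1 := by rw [map_pow, h1, one_pow]
        have h4 : τ.character (x ^ i) = τ.character 1 := (char_eq_one_iff τ _).2 h3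
        rw [h4, Representation.char_one]
        simp
    have h3 := isEig_unique (heig x) h2
    -- all the roots are one
    have h4 : ∀ r ∈ (LinearMap.charpoly (σ x)).roots, r = 1 := by
      intro r hr
      have h5 : lift p r ∈ Multiset.replicate n (1 : ℂ) := by
        rw [← h3]
        exact Multiset.mem_map_of_mem _ hr
      exact lift_eq_one (root_isRU σ (hreg x) hr) (Multiset.eq_of_mem_replicate h5)
    have hgm : ((orderOf x : ℕ) : ZMod p) ≠ 0 := fun h => hreg x ((ZMod.natCast_eq_zero_iff _ _).1 h)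
    have hpow : (ρ x) ^ orderOf x = 1 := by rw [← map_pow, pow_orderOf_eq_one, map_one]
    have h5 : (LinearMap.charpoly (σ x)).roots.count 1 = finrank (ZMod p) (LinearMap.ker (ρ x - 1)) := by
      rw [count_roots, hcp, ← maxGen_eq hgm hpow, LinearMap.finrank_maxGenEigenspace_eq,
        Polynomial.eq_rootMultiplicity_map (FaithfulSMul.algebraMap_injective (ZMod p) (ResidueField V)),
        map_one]
    have h6 : (LinearMap.charpoly (σ x)).roots.count 1 = finrank (ZMod p) W := by
      rw [Multiset.count_eq_card.2 (fun r hr => (h4 r hr).symm), hcp, IsAlgClosed.card_roots_eq_natDegree,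
        Polynomial.natDegree_map, LinearMap.charpoly_natDegree]
    have h7 : LinearMap.ker (ρ x - 1) = ⊤ := Submodule.eq_top_of_finrank_eq (h5.symm.trans h6)
    apply Subtype.ext
    apply hf
    intro w
    have h8 : w ∈ LinearMap.ker (ρ x - 1) := by rw [h7]; trivial
    rw [LinearMap.mem_ker, LinearMap.sub_apply, Module.End.one_apply, sub_eq_zero, hρ] at h8
    exact h8
  · intro g x
    unfold bc
    rw [hcp, hcp]
    have h1 : LinearMap.charpoly (ρ ⟨g * x * g⁻¹, hR.conj_mem x x.2 g⟩) = LinearMap.charpoly (ρ x) :=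
      charpoly_conj' p X W g x
    rw [h1]

/-- The Brauer character of the normal `p`-complement. -/
theorem exists_lift {p : ℕ} [Fact p.Prime] {X W : Type u} [Group X] [Finite X] [AddCommGroup W] [Finite W]
    [DistribMulAction X W] (R : Subgroup X) (hR : R.Normal) (hpR : ¬ p ∣ Nat.card R)
    (hpW : ∀ w : W, p • w = 0) (hf : ∀ g : X, (∀ w : W, g • w = w) → g = 1) :
    ∃ (β : R → ℂ) (n : ℕ), IsCharacter R β ∧ β 1 = n ∧ Nat.card W = p ^ n ∧ (∀ x : R, β x = β 1 → x = 1) ∧
      ∀ (g : X) (x : R), β ⟨g * x * g⁻¹, hR.conj_mem x x.2 g⟩ = β x := by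
  let _ : Module (ZMod p) W := AddCommGroup.zmodModule hpW
  exact exists_lift' R hR hpR hf

/-- The bound by `λ_p`. -/
theorem nu_le_lam {p : ℕ} (hp : p.Prime) {X W : Type u} [Group X] [Finite X] [AddCommGroup W] [Finite W]
    [DistribMulAction X W] (R : Subgroup X) (hR : LP p R)
    (hc : ∀ g : X, PEl p g → (∀ x ∈ R, g * x = x * g) → g = 1)
    (hpW : ∀ w : W, p • w = 0) (hf : ∀ g : X, (∀ w : W, g • w = w) → g = 1) :
    (Nat.card X).factorization p ≤ lam p ((Nat.card W).factorization p) := by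
  classical
  have : Fact p.Prime := ⟨hp⟩
  have hRn := hR.normal
  obtain ⟨β, n, h1, h2, h3, h4, h5⟩ := exists_lift R hRn hR.cop hpW hf
  have hn : (Nat.card W).factorization p = n := by
    rw [h3, Nat.factorization_pow, Finsupp.smul_apply, hp.factorization_self, smul_eq_mul, mul_one]
  obtain ⟨P⟩ : Nonempty (Sylow p X) := inferInstance
  let c : P →* MulAut R := (MulAut.conjNormal (H := R)).comp (P : Subgroup X).subtype
  have hcapp : ∀ (g : P) (x : R), ((c g x : R) : X) = g * x * (g : X)⁻¹ := fun g x =>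
    MulAut.conjNormal_apply (g : X) x
  have hinj : Function.Injective c := by
    rw [injective_iff_map_eq_one]
    intro g hg
    apply Subtype.ext
    apply hc
    · obtain ⟨k, hk⟩ := P.2 g
      exact ⟨k, congrArg Subtype.val hk⟩
    · intro x hx
      have h6 := hcapp g ⟨x, hx⟩
      rw [hg] at h6
      exact (mul_inv_eq_iff_eq_mul.1 h6.symm)
  have hcop : (Nat.card R).Coprime p := ((Nat.Prime.coprime_iff_not_dvd hp).2 hR.cop).symm
  have h7 := Cfsg.Agent.H600.Canon.bd hp n (Nat.card R) R c.range β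
    (P.2.of_surjective c.rangeRestrict c.rangeRestrict_surjective) hcop h1 h4
    (by
      rintro _ ⟨g, rfl⟩ x
      have h8 : c g x = ⟨(g : X) * x * (g : X)⁻¹, hRn.conj_mem x x.2 g⟩ := Subtype.ext (hcapp g x)
      rw [h8]
      exact h5 g x) h2 le_rfl
  have h8 : Nat.card c.range = p ^ (Nat.card X).factorization p := by
    rw [← P.card_eq_multiplicity]
    exact (Nat.card_congr (MonoidHom.ofInjective hinj).toEquiv).symm
  rw [h8] at h7
  rw [hn]
  exact (Nat.pow_le_pow_iff_right hp.one_lt).1 h7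

/-- `(p - 1)² λ_p(n) ≤ p n`. -/
theorem lam_le {p : ℕ} (hp : p.Prime) (n : ℕ) : (p - 1) ^ 2 * lam p n ≤ p * n := by
  -- `(p - 1)² Σ_{i < N} n / ((p-1) p^i) ≤ (p - 1) Σ n / p^i = ...`
  have h2 := hp.two_le
  have key : ∀ N : ℕ, ((p - 1) ^ 2 * ∑ i ∈ Finset.range N, n / ((p - 1) * p ^ i) : ℕ) * p ^ N ≤
      p * n * (p ^ N - 1) := by
    intro N
    induction N with
    | zero => simp
    | succ N ih =>
      rw [Finset.sum_range_succ, mul_add, add_mul]
      have h3 : (p - 1) * p ^ N * (n / ((p - 1) * p ^ N)) ≤ n := Nat.mul_div_le _ _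
      have h4 : 1 ≤ p ^ N := Nat.one_le_pow _ _ hp.pos
      obtain ⟨q, rfl⟩ : ∃ q, p = q + 1 := ⟨p - 1, by omega⟩
      simp only [Nat.add_sub_cancel] at *
      obtain ⟨m, hm⟩ : ∃ m, (q + 1) ^ N = m + 1 := ⟨(q + 1) ^ N - 1, by omega⟩
      have h5 : (q + 1) ^ (N + 1) - 1 = (m + 1) * (q + 1) - 1 := by rw [pow_succ, hm]
      have h6 : (m + 1) * (q + 1) - 1 = (q + 1) * m + q := by
        have : (m + 1) * (q + 1) = (q + 1) * m + q + 1 := by ring
        omega
      rw [h5, h6, pow_succ (q + 1) N, hm]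
      rw [hm] at ih h3
      simp only [Nat.add_sub_cancel] at ih
      set S := ∑ i ∈ Finset.range N, n / (q * (q + 1) ^ i)
      set t := n / (q * (m + 1))
      calc q ^ 2 * S * ((m + 1) * (q + 1)) + q ^ 2 * t * ((m + 1) * (q + 1))
          = (q ^ 2 * S * (m + 1)) * (q + 1) + (q * (m + 1) * t) * (q * (q + 1)) := by ring
        _ ≤ ((q + 1) * n * m) * (q + 1) + n * (q * (q + 1)) :=
          Nat.add_le_add (Nat.mul_le_mul_right _ ih) (Nat.mul_le_mul_right _ h3)
        _ = (q + 1) * n * ((q + 1) * m + q) := by ring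
  have h3 := key (n + 1)
  have h4 : 0 < p ^ (n + 1) := Nat.pow_pos hp.pos
  have h5 : (p - 1) ^ 2 * lam p n * p ^ (n + 1) ≤ p * n * p ^ (n + 1) :=
    h3.trans (Nat.mul_le_mul_left _ (Nat.sub_le _ _))
  exact Nat.le_of_mul_le_mul_right h5 h4

/-- `PLin` from the bound by `λ_p`. -/
theorem plin_of {p a b : ℕ} (hp : p.Prime) (h : b * p ≤ a * (p - 1) ^ 2) : PLin.{u} p a b := by
  intro X W _ _ _ _ _ R hR hc hpW hf
  have h1 := nu_le_lam hp R hR hc hpW hf
  set n := (Nat.card W).factorization p
  have h2 := lam_le hp n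
  have h3 : 0 < (p - 1) ^ 2 := by
    have := hp.two_le
    exact Nat.pow_pos (by omega)
  refine le_trans (Nat.mul_le_mul_left b h1) ?_
  refine Nat.le_of_mul_le_mul_left ?_ h3
  calc (p - 1) ^ 2 * (b * lam p n) = b * ((p - 1) ^ 2 * lam p n) := by ring
    _ ≤ b * (p * n) := Nat.mul_le_mul_left _ h2
    _ = (b * p) * n := by ring
    _ ≤ (a * (p - 1) ^ 2) * n := Nat.mul_le_mul_right _ h
    _ = (p - 1) ^ 2 * (a * n) := by ring

theorem plin_three : PLin.{u} 3 3 4 := plin_of Nat.prime_three (by norm_num)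

theorem plin_five : PLin.{u} 5 5 16 := plin_of Nat.prime_five (by norm_num)

theorem plin_ge {p : ℕ} (hp : p.Prime) (h7 : 7 ≤ p) : PLin.{u} p 7 36 := by
  apply plin_of hp
  obtain ⟨q, rfl⟩ : ∃ q, p = q + 1 := ⟨p - 1, by omega⟩
  have h6 : 6 ≤ q := by omega
  rw [Nat.add_sub_cancel]
  obtain ⟨k, rfl⟩ : ∃ k, q = 6 + k := ⟨q - 6, by omega⟩
  nlinarith [Nat.zero_le k]

end Cfsg.Agent.H96.RC
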